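import Cfsg.Agent.Lib.Helper95.AutO.Perm
import Cfsg.Agent.Lib.Helper29.AutOIrr

set_option autoImplicit false
set_option linter.unusedSectionVars false
set_option linter.unusedSimpArgs false

/-! Rungs CONJQS, EQ, PERP, NQS, RIG, F5 of the AUT-ORTH ladder (helper95, msg 869). -/

namespace Cfsg.Agent.Lib.Helper75.AutOPts

open QuadraticMap Module Cfsg.Agent.Lib.Helper49 Cfsg.Agent.Lib.Helper95 Cfsg.Agent.Lib.Helper95.AutO

variable {F V : Type*} [Field F] [Fintype F] [AddCommGroup V] [Module F V] [FiniteDimensional F V]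
  {Q : QuadraticForm F V}

lemma map_map_inv (W : Submodule F V) (g : OG Q) :
    (W.map (g.1 : V →ₗ[F] V)).map ((g⁻¹).1 : V →ₗ[F] V) = W := by
  ext x
  simp only [Submodule.mem_map]
  constructor
  · rintro ⟨y, ⟨z, hz, rfl⟩, rfl⟩
    have : (g⁻¹).1 (g.1 z) = z := OG_inv_apply_apply g z
    change (g⁻¹).1 (g.1 z) ∈ W
    rw [this]
    exact hz
  · intro hx
    exact ⟨g.1 x, ⟨x, hx, rfl⟩, OG_inv_apply_apply g x⟩

/-- RUNG CONJQS -/
theorem map_conj_img_QW (W : Submodule F V) (g : ↥(Om Q)) :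
    (img Q (QW Q W)).map (MulAut.conj (pr Q g)).toMonoidHom =
      img Q (QW Q (W.map (g.1.1 : V →ₗ[F] V))) := by
  apply le_antisymm
  · rintro _ ⟨t, ht, rfl⟩
    exact conj_mem_img_QW ht g
  · intro t ht
    have h1 := conj_mem_img_QW ht g⁻¹
    have h2 : ((W.map (g.1.1 : V →ₗ[F] V)).map (((g⁻¹ : ↥(Om Q)).1).1 : V →ₗ[F] V)) = W :=
      map_map_inv W g.1
    rw [h2] at h1
    refine ⟨_, h1, ?_⟩
    simp [mul_assoc]

theorem map_conj_img_QS (e : V) (g : ↥(Om Q)) :
    (img Q (QS Q e)).map (MulAut.conj (pr Q g)).toMonoidHom = img Q (QS Q (g.1.1 e)) := by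
  rw [QS, map_conj_img_QW, QS, Submodule.map_span, Set.image_singleton]
  rfl

theorem img_QW_le_img_stab (W : Submodule F V) : img Q (QW Q W) ≤ img Q (stabSub Q W) := by
  apply img_mono
  intro g _ hg
  apply mem_stabSub_of_forall
  intro x hx
  rw [hg.1 x hx]
  exact hx

lemma exists_nonsing_perp (hQ : (polarBilin Q).Nondegenerate) (hd : 7 ≤ finrank F V) (e : V) :
    ∃ w, polar Q e w = 0 ∧ Q w ≠ 0 := by
  obtain ⟨w, hw, hQw⟩ := qexists_perp_nonsing Q hQ ![e] (by omega)
  exact ⟨w, by rw [polar_comm]; exact hw 0, hQw⟩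

lemma sb_ne_one_of_nonsing (hQ : (polarBilin Q).Nondegenerate) (hd : 7 ≤ finrank F V)
    {e w : V} (he0 : e ≠ 0) (he : Q e = 0) (hw : polar Q e w = 0) (hQw : Q w ≠ 0) :
    sb hQ hd e w ≠ 1 := by
  intro h
  obtain ⟨c, rfl⟩ := (sb_eq_one_iff hQ hd he he0 hw).1 h
  apply hQw
  rw [QuadraticMap.map_smul, he]; simp

/-- RUNG EQ : equal radicals, equal points -/
theorem exists_smul_of_img_QS_eq (hQ : (polarBilin Q).Nondegenerate) (hd : 7 ≤ finrank F V)
    {e e' : V} (he0 : e ≠ 0) (he : Q e = 0) (he0' : e' ≠ 0) (he' : Q e' = 0)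
    (h : img Q (QS Q e) = img Q (QS Q e')) : ∃ c : F, c ≠ 0 ∧ e' = c • e := by
  by_cases hne : ∀ c : F, e' ≠ c • e
  · exfalso
    obtain ⟨w, hw, hQw⟩ := exists_nonsing_perp hQ hd e
    have h1 : sb hQ hd e w ∈ img Q (QS Q e) := sb_mem hQ hd he hw
    have h2 : sb hQ hd e w ∈ img Q (QS Q e') := h ▸ h1
    rcases mem_img_QS_inf hQ hd he he0 hne h1 h2 with h3 | ⟨h3, c, h4⟩
    · exact sb_ne_one_of_nonsing hQ hd he0 he hw hQw h3
    · obtain ⟨c', hc'⟩ := (sb_eq_sb_iff hQ hd he he0 hw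
        (by rw [polar_smul_right, h3]; simp)).1 h4
      apply hQw
      rw [hc', qmap_add, QuadraticMap.map_smul, QuadraticMap.map_smul, he, he',
        polar_smul_left, polar_smul_right, polar_comm, h3]
      simp
  · push Not at hne
    obtain ⟨c, hc⟩ := hne
    refine ⟨c, ?_, hc⟩
    rintro rfl
    simp at hc
    exact he0' hc

/-- RUNG PERP : orthogonality of singular points in terms of the radicals -/
theorem img_QS_inf_ne_bot_iff (hQ : (polarBilin Q).Nondegenerate) (hd : 7 ≤ finrank F V)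
    {e e' : V} (he0 : e ≠ 0) (he : Q e = 0) (he0' : e' ≠ 0) (he' : Q e' = 0) :
    img Q (QS Q e) ⊓ img Q (QS Q e') ≠ ⊥ ↔ polar Q e e' = 0 := by
  have hee : polar Q e e = 0 := polar_self_of_Q he
  by_cases hne : ∀ c : F, e' ≠ c • e
  · constructor
    · intro h
      obtain ⟨t, ht1⟩ := Subgroup.ne_bot_iff_exists_ne_one.1 h
      have ht1' : (t : PT Q) ≠ 1 := fun h => ht1 (Subtype.ext h)
      rcases mem_img_QS_inf hQ hd he he0 hne t.2.1 t.2.2 with h3 | ⟨h3, -⟩
      · exact absurd h3 ht1'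
      · exact h3
    · intro h hbot
      have h1 : sb hQ hd e e' ∈ img Q (QS Q e) := sb_mem hQ hd he h
      have h2 : sb hQ hd e e' ∈ img Q (QS Q e') := by
        have h3 : sb hQ hd e e' = sb hQ hd e' (-e) := by
          rw [sb, sb]
          congr 1
          exact Subtype.ext (si_symm ⟨he, he', h⟩)
        rw [h3]
        exact sb_mem hQ hd he' (by rw [polar_neg_right, polar_comm, h, neg_zero])
      have h3 : sb hQ hd e e' ∈ img Q (QS Q e) ⊓ img Q (QS Q e') := ⟨h1, h2⟩
      rw [hbot, Subgroup.mem_bot] at h3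
      obtain ⟨c, hc⟩ := (sb_eq_one_iff hQ hd he he0 h).1 h3
      exact hne c hc
  · push Not at hne
    obtain ⟨c, rfl⟩ := hne
    have hc : c ≠ 0 := by
      rintro rfl
      simp at he0'
    rw [QS_smul hc, inf_idem, polar_smul_right, hee]
    simp only [smul_eq_mul, mul_zero, iff_true]
    intro hbot
    obtain ⟨w, hw, hQw⟩ := exists_nonsing_perp hQ hd e
    have h1 : sb hQ hd e w ∈ img Q (QS Q e) := sb_mem hQ hd he hw
    rw [hbot, Subgroup.mem_bot] at h1
    exact sb_ne_one_of_nonsing hQ hd he0 he hw hQw h1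

lemma OG_apply_ne_zero (g : OG Q) {e : V} (he0 : e ≠ 0) : g.1 e ≠ 0 := by
  intro h
  apply he0
  have := OG_inv_apply_apply g e
  rw [h, map_zero] at this
  exact this.symm

lemma map_conj_eq_of_mem_normalizer {G : Type*} [Group G] {H : Subgroup G} {t : G}
    (ht : t ∈ Subgroup.normalizer (H : Set G)) : H.map (MulAut.conj t).toMonoidHom = H := by
  rw [Subgroup.mem_normalizer_iff] at ht
  ext s
  simp only [Subgroup.mem_map]
  constructor
  · rintro ⟨h, hh, rfl⟩
    exact (ht h).1 hh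
  · intro hs
    refine ⟨t⁻¹ * s * t, ?_, by simp [mul_assoc]⟩
    rw [ht]
    simpa [mul_assoc] using hs

/-- RUNG NQS : the normaliser of the image of a point radical -/
theorem normalizer_img_QS (hQ : (polarBilin Q).Nondegenerate) (hd : 7 ≤ finrank F V)
    {e : V} (he0 : e ≠ 0) (he : Q e = 0) :
    Subgroup.normalizer (img Q (QS Q e) : Set (PT Q)) = img Q (stabSub Q (Submodule.span F {e})) := by
  apply le_antisymm
  · intro t ht
    obtain ⟨g, rfl⟩ := pr_surjective t
    have h1 := map_conj_eq_of_mem_normalizer ht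
    rw [map_conj_img_QS] at h1
    obtain ⟨c, -, hc⟩ := exists_smul_of_img_QS_eq hQ hd he0 he (OG_apply_ne_zero g.1 he0)
      (by rw [OG_apply, he]) h1.symm
    apply pr_mem_img
    apply mem_stabSub_of_forall
    intro x hx
    obtain ⟨d, rfl⟩ := Submodule.mem_span_singleton.1 hx
    rw [map_smul, hc]
    exact Submodule.smul_mem _ _ (Submodule.smul_mem _ _ (Submodule.mem_span_singleton_self e))
  · exact img_stab_le_normalizer (Submodule.span F {e})

lemma conj_inv_mem_img_QS {e : V} {t : PT Q} (g : ↥(Om Q)) (ht : t ∈ img Q (QS Q (g.1.1 e))) :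
    (pr Q g)⁻¹ * t * pr Q g ∈ img Q (QS Q e) := by
  have h1 := conj_mem_img_QS ht g⁻¹
  have h2 : ((g⁻¹ : ↥(Om Q)).1).1 (g.1.1 e) = e := OG_inv_apply_apply g.1 e
  rw [h2, map_inv, inv_inv] at h1
  exact h1

/-- RUNG RIG -/
theorem aut_rigid (hQ : (polarBilin Q).Nondegenerate) (hd : 7 ≤ finrank F V)
    (α α' : PT Q ≃* PT Q)
    (h : ∀ e : V, e ≠ 0 → Q e = 0 →
      (img Q (QS Q e)).map α.toMonoidHom = (img Q (QS Q e)).map α'.toMonoidHom) : α = α' := by
  set β : PT Q ≃* PT Q := α.trans α'.symm with hβdef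
  have hβ1 : ∀ e : V, e ≠ 0 → Q e = 0 → ∀ s ∈ img Q (QS Q e), β s ∈ img Q (QS Q e) := by
    intro e he0 he s hs
    have h1 : α s ∈ (img Q (QS Q e)).map α'.toMonoidHom := by
      rw [← h e he0 he]
      exact ⟨s, hs, rfl⟩
    obtain ⟨r, hr, hrs⟩ := h1
    have h2 : β s = r := by
      rw [hβdef]
      change α'.symm (α s) = r
      rw [← hrs]
      exact α'.symm_apply_apply r
    rw [h2]
    exact hr
  have hβ2 : ∀ e : V, e ≠ 0 → Q e = 0 → ∀ s ∈ img Q (QS Q e), ∃ r ∈ img Q (QS Q e), β r = s := by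
    intro e he0 he s hs
    have h1 : α' s ∈ (img Q (QS Q e)).map α.toMonoidHom := by
      rw [h e he0 he]
      exact ⟨s, hs, rfl⟩
    obtain ⟨r, hr, hrs⟩ := h1
    refine ⟨r, hr, ?_⟩
    rw [hβdef]
    change α'.symm (α r) = s
    have : α r = α' s := hrs
    rw [this]
    exact α'.symm_apply_apply s
  have main : ∀ t, β t = t := by
    intro t
    obtain ⟨g, rfl⟩ := pr_surjective t
    obtain ⟨k, hk⟩ := pr_surjective ((pr Q g)⁻¹ * β (pr Q g))
    have hfix : ∀ e, Q e = 0 → ∃ c : F, k.1.1 e = c • e := by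
      intro e he
      by_cases he0 : e = 0
      · exact ⟨0, by rw [he0]; simp⟩
      have hg0 := OG_apply_ne_zero g.1 he0
      have hgq : Q (g.1.1 e) = 0 := by rw [OG_apply, he]
      have hn : pr Q k ∈ Subgroup.normalizer (img Q (QS Q e) : Set (PT Q)) := by
        rw [Subgroup.mem_normalizer_iff, hk]
        have d1 : ∀ s ∈ img Q (QS Q e), ((pr Q g)⁻¹ * β (pr Q g)) * s *
            ((pr Q g)⁻¹ * β (pr Q g))⁻¹ ∈ img Q (QS Q e) := by
          intro s hs
          obtain ⟨r, hr, rfl⟩ := hβ2 e he0 he s hs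
          have h1 := hβ1 _ hg0 hgq _ (conj_mem_img_QS hr g)
          have h2 := conj_inv_mem_img_QS g h1
          rw [map_mul, map_mul, map_inv] at h2
          simpa [mul_assoc] using h2
        have d2 : ∀ s ∈ img Q (QS Q e), ((pr Q g)⁻¹ * β (pr Q g))⁻¹ * s *
            ((pr Q g)⁻¹ * β (pr Q g)) ∈ img Q (QS Q e) := by
          intro s hs
          obtain ⟨r, hr, hrs⟩ := hβ2 _ hg0 hgq _ (conj_mem_img_QS hs g)
          have h1 := hβ1 e he0 he _ (conj_inv_mem_img_QS g hr)
          rw [map_mul, map_mul, map_inv, hrs] at h1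
          simpa [mul_assoc] using h1
        intro s
        refine ⟨d1 s, fun hs => ?_⟩
        have := d2 _ hs
        simpa [mul_assoc] using this
      rw [normalizer_img_QS hQ hd he0 he, pr_mem_img_stab_iff hQ hd] at hn
      have := stabSub_apply_mem hn (Submodule.mem_span_singleton_self e)
      obtain ⟨c, hc⟩ := Submodule.mem_span_singleton.1 this
      exact ⟨c, hc.symm⟩
    obtain ⟨c, hc⟩ := scalar_of_fix_singular hQ hd k.1 hfix
    have h1 : pr Q k = 1 := pr_eq_one_iff.2 (mem_center_of_scalar hc)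
    rw [h1] at hk
    exact (inv_mul_eq_one.1 hk.symm).symm
  ext t
  have h1 := main t
  rw [hβdef] at h1
  change α'.symm (α t) = t at h1
  have h2 := congrArg α' h1
  rwa [MulEquiv.apply_symm_apply] at h2

/-- RUNG F5 -/
theorem eq_span_of_stab_le (hQ : (polarBilin Q).Nondegenerate) (hd : 7 ≤ finrank F V)
    {e : V} (he0 : e ≠ 0) (he : Q e = 0) (W : Submodule F V) (hW0 : W ≠ ⊥)
    (hW : ∀ x ∈ W, Q x = 0)
    (h : img Q (stabSub Q (Submodule.span F {e})) ≤ img Q (stabSub Q W)) :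
    W = Submodule.span F {e} := by
  have hee : polar Q e e = 0 := polar_self_of_Q he
  -- elements of `Ω` stabilising `⟨e⟩` stabilise `W`
  have hst : ∀ g : ↥(Om Q), (∃ c : F, g.1.1 e = c • e) → ∀ x ∈ W, g.1.1 x ∈ W := by
    rintro g ⟨c, hc⟩ x hx
    have h1 : g.1 ∈ stabSub Q (Submodule.span F {e}) := by
      apply mem_stabSub_of_forall
      intro y hy
      obtain ⟨d, rfl⟩ := Submodule.mem_span_singleton.1 hy
      rw [map_smul, hc]
      exact Submodule.smul_mem _ _ (Submodule.smul_mem _ _ (Submodule.mem_span_singleton_self e))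
    have h2 := (pr_mem_img_stab_iff hQ hd).1 (h (pr_mem_img h1))
    exact stabSub_apply_mem h2 hx
  have hpol : ∀ x ∈ W, ∀ y ∈ W, polar Q x y = 0 := by
    intro x hx y hy
    rw [polar, hW _ (W.add_mem hx hy), hW x hx, hW y hy]
    simp
  -- `W ≤ e^⊥`
  have hperp : ∀ x ∈ W, polar Q e x = 0 := by
    intro x hx
    by_contra hex
    obtain ⟨w, hw, hQw⟩ := exists_nonsing_perp hQ hd e
    have h1 := hst ⟨si Q e w, si_mem_commutator hQ (by omega) e w⟩
      ⟨1, by rw [one_smul]; exact si_fix_self he hw⟩ x hx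
    change (si Q e w).1 x ∈ W at h1
    have h2 : (si Q e w).1 x - x ∈ W := W.sub_mem h1 hx
    have h3 := hW _ h2
    rw [si_apply he hw] at h3
    have h4 : x + polar Q e x • w - polar Q w x • e - (Q w * polar Q e x) • e - x =
        polar Q e x • w + (- polar Q w x - Q w * polar Q e x) • e := by module
    rw [h4, qmap_add, QuadraticMap.map_smul, QuadraticMap.map_smul, he, polar_smul_left,
      polar_smul_right, polar_comm Q w e, hw] at h3
    simp only [smul_eq_mul, mul_zero, add_zero] at h3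
    rcases mul_eq_zero.1 h3 with h5 | h5
    · exact hex (mul_self_eq_zero.1 h5)
    · exact hQw h5
  -- `W ≤ ⟨e⟩`
  have hle : ∀ x ∈ W, ∃ c : F, x = c • e := by
    by_contra hcon
    push Not at hcon
    obtain ⟨x0, hx0, hx0e⟩ := hcon
    have hC := Cfsg.Agent.Lib.Helper29.AutO.irr_point Q hQ hd he he0 (W ⊔ Submodule.span F {e})
      (Submodule.mem_sup_right (Submodule.mem_span_singleton_self e))
      ⟨x0, Submodule.mem_sup_left hx0, hx0e⟩
      (by
        intro x hx
        obtain ⟨y, hy, z, hz, rfl⟩ := Submodule.mem_sup.1 hx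
        obtain ⟨d, rfl⟩ := Submodule.mem_span_singleton.1 hz
        rw [polar_add_right, hperp y hy, polar_smul_right, hee]
        simp)
      (by
        intro g hg hge x hx
        obtain ⟨y, hy, z, hz, rfl⟩ := Submodule.mem_sup.1 hx
        obtain ⟨d, rfl⟩ := Submodule.mem_span_singleton.1 hz
        rw [map_add, map_smul, hge]
        exact Submodule.add_mem _
          (Submodule.mem_sup_left (hst ⟨g, hg⟩ ⟨1, by rw [one_smul]; exact hge⟩ y hy))
          (Submodule.mem_sup_right (Submodule.smul_mem _ _ (Submodule.mem_span_singleton_self e))))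
    obtain ⟨w, hw, hQw⟩ := exists_nonsing_perp hQ hd e
    obtain ⟨y, hy, z, hz, hyz⟩ := Submodule.mem_sup.1 (hC w hw)
    obtain ⟨d, rfl⟩ := Submodule.mem_span_singleton.1 hz
    apply hQw
    rw [← hyz, qmap_add, hW y hy, QuadraticMap.map_smul, he, polar_smul_right, polar_comm,
      hperp y hy]
    simp
  apply le_antisymm
  · intro x hx
    obtain ⟨c, rfl⟩ := hle x hx
    exact Submodule.smul_mem _ _ (Submodule.mem_span_singleton_self e)
  · obtain ⟨x, hx, hx0⟩ := (Submodule.ne_bot_iff W).1 hW0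
    obtain ⟨c, rfl⟩ := hle x hx
    have hc : c ≠ 0 := by
      rintro rfl
      simp at hx0
    rw [Submodule.span_singleton_le_iff_mem]
    have := W.smul_mem c⁻¹ hx
    rwa [smul_smul, inv_mul_cancel₀ hc, one_smul] at this

end Cfsg.Agent.Lib.Helper75.AutOPts
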