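import Cfsg.Agent.Lib.Helper75.AutOFinalCore
import Cfsg.Agent.Lib.Helper75.AutOPts

set_option autoImplicit false

/-! Rung FINAL of the AUT-ORTH ladder. -/

namespace Cfsg.Agent.Lib.Helper75.AutOFinal

open QuadraticMap Module Cfsg.Agent.Lib.Helper49 Cfsg.Agent.Lib.Helper95 Cfsg.Agent.Lib.Helper95.AutO

variable {F V : Type*} [Field F] [Fintype F] [AddCommGroup V] [Module F V] [FiniteDimensional F V]
  {Q : QuadraticForm F V}

/-- RUNG FINAL -/
theorem eq_of_agree (hQ : (polarBilin Q).Nondegenerate) (hd : 7 ≤ finrank F V)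
    (α κ : PT Q ≃* PT Q) (H : PermPts Q α) (H' : PermPts Q α.symm) (K : PermPts Q κ)
    {e f : V} (he : Q e = 0) (hf : Q f = 0) (hef : polar Q e f = 1)
    (h1 : ∀ w, polar Q e w = 0 → α (sb hQ hd e w) = κ (sb hQ hd e w))
    (h2 : (img Q (QS Q f)).map α.toMonoidHom = (img Q (QS Q f)).map κ.toMonoidHom) :
    α = κ :=
  eq_of_agree_core hQ hd
    (fun a b c d => AutOPts.img_QS_inf_ne_bot_iff hQ hd a b c d)
    (fun a b c d h => AutOPts.exists_smul_of_img_QS_eq hQ hd a b c d h)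
    (fun e g => AutOPts.map_conj_img_QS e g)
    (fun α α' h => AutOPts.aut_rigid hQ hd α α' h)
    α κ H H' K he hf hef h1 h2

end Cfsg.Agent.Lib.Helper75.AutOFinal
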