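import Cfsg.Agent.Lib.Helper95.AutO.Perm
import Cfsg.Agent.Lib.Helper95.OmSiegGen

set_option autoImplicit false

/-! Rung FINAL of the AUT-ORTH ladder (core, with the rungs RIG / PERP / EQ / CONJQS as hypotheses). -/

namespace Cfsg.Agent.Lib.Helper75.AutOFinal

open QuadraticMap Module Cfsg.Agent.Lib.Helper49 Cfsg.Agent.Lib.Helper95 Cfsg.Agent.Lib.Helper95.AutO

variable {F V : Type*} [Field F] [Fintype F] [AddCommGroup V] [Module F V] [FiniteDimensional F V]
  {Q : QuadraticForm F V}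

/-- statement of rung PERP -/
def PerpStmt (Q : QuadraticForm F V) : Prop :=
  ∀ {e e' : V}, e ≠ 0 → Q e = 0 → e' ≠ 0 → Q e' = 0 →
    (img Q (QS Q e) ⊓ img Q (QS Q e') ≠ ⊥ ↔ polar Q e e' = 0)

/-- statement of rung EQ -/
def EqStmt (Q : QuadraticForm F V) : Prop :=
  ∀ {e e' : V}, e ≠ 0 → Q e = 0 → e' ≠ 0 → Q e' = 0 →
    img Q (QS Q e) = img Q (QS Q e') → ∃ c : F, c ≠ 0 ∧ e' = c • e

/-- statement of rung CONJQS (point form) -/
def ConjStmt (Q : QuadraticForm F V) : Prop :=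
  ∀ (e : V) (g : ↥(Om Q)),
    (img Q (QS Q e)).map (MulAut.conj (pr Q g)).toMonoidHom = img Q (QS Q (g.1.1 e))

/-- statement of rung RIG -/
def RigStmt (Q : QuadraticForm F V) : Prop :=
  ∀ α α' : PT Q ≃* PT Q,
    (∀ e : V, e ≠ 0 → Q e = 0 →
      (img Q (QS Q e)).map α.toMonoidHom = (img Q (QS Q e)).map α'.toMonoidHom) → α = α'

omit [Fintype F] [FiniteDimensional F V] in
lemma perp_transfer (hP : PerpStmt Q) (α : PT Q ≃* PT Q) {x y x' y' : V}
    (hx0 : x ≠ 0) (hx : Q x = 0) (hy0 : y ≠ 0) (hy : Q y = 0)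
    (hx0' : x' ≠ 0) (hx' : Q x' = 0) (hy0' : y' ≠ 0) (hy' : Q y' = 0)
    (h1 : (img Q (QS Q x)).map α.toMonoidHom = img Q (QS Q x'))
    (h2 : (img Q (QS Q y)).map α.toMonoidHom = img Q (QS Q y')) :
    polar Q x y = 0 ↔ polar Q x' y' = 0 := by
  rw [← hP hx0 hx hy0 hy, ← hP hx0' hx' hy0' hy', ← h1, ← h2,
    ← Subgroup.map_inf _ _ _ α.injective, Ne, Ne,
    Subgroup.map_eq_bot_iff_of_injective _ α.injective]

omit [Fintype F] [FiniteDimensional F V] in
lemma img_QS_smul {x : V} {c : F} (hc : c ≠ 0) : img Q (QS Q (c • x)) = img Q (QS Q x) := by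
  rw [QS_smul hc]

omit [Fintype F] [FiniteDimensional F V] in
/-- separation -/
lemma exists_sep (hQ : (polarBilin Q).Nondegenerate) {e1 x1 x2 : V}
    (h1 : ∀ c : F, e1 ≠ c • x1) (h2 : ∀ c : F, x2 ≠ c • x1) :
    ∃ z, polar Q z x1 = 0 ∧ polar Q z e1 = 1 ∧ polar Q z x2 ≠ 0 := by
  obtain ⟨z0, hz0, hz1⟩ := qsep1 hQ h1
  by_cases h : polar Q z0 x2 = 0
  · by_cases hs : ∀ c d : F, x2 ≠ c • x1 + d • e1
    · obtain ⟨z1, ha, hb, hc⟩ := qsep2 hQ hs
      refine ⟨z0 + z1, ?_, ?_, ?_⟩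
      · rw [polar_add_left, hz0, ha, add_zero]
      · rw [polar_add_left, hz1, hb, add_zero]
      · rw [polar_add_left, h, hc, zero_add]
        exact one_ne_zero
    · push Not at hs
      obtain ⟨c, d, hcd⟩ := hs
      exfalso
      rw [hcd, polar_add_right, polar_smul_right, polar_smul_right, hz0, hz1] at h
      simp only [smul_eq_mul, mul_zero, mul_one, zero_add] at h
      rw [h, zero_smul, add_zero] at hcd
      exact h2 c hcd
  · exact ⟨z0, hz0, hz1, h⟩

theorem eq_of_agree_core (hQ : (polarBilin Q).Nondegenerate) (hd : 7 ≤ finrank F V)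
    (hP : PerpStmt Q) (hE : EqStmt Q) (hC : ConjStmt Q) (hR : RigStmt Q)
    (α κ : PT Q ≃* PT Q) (H : PermPts Q α) (H' : PermPts Q α.symm) (K : PermPts Q κ)
    {e f : V} (he : Q e = 0) (hf : Q f = 0) (hef : polar Q e f = 1)
    (h1 : ∀ w, polar Q e w = 0 → α (sb hQ hd e w) = κ (sb hQ hd e w))
    (h2 : (img Q (QS Q f)).map α.toMonoidHom = (img Q (QS Q f)).map κ.toMonoidHom) :
    α = κ := by
  have he0 : e ≠ 0 := by
    rintro rfl
    simp at hef
  -- the two automorphisms agree on `A_e`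
  have hAe : (img Q (QS Q e)).map α.toMonoidHom = (img Q (QS Q e)).map κ.toMonoidHom := by
    ext t
    simp only [Subgroup.mem_map]
    constructor
    · rintro ⟨s, hs, rfl⟩
      obtain ⟨w, hw, rfl⟩ := (mem_img_QS_iff hQ hd he0 he).1 hs
      exact ⟨_, hs, (h1 w hw).symm⟩
    · rintro ⟨s, hs, rfl⟩
      obtain ⟨w, hw, rfl⟩ := (mem_img_QS_iff hQ hd he0 he).1 hs
      exact ⟨_, hs, h1 w hw⟩
  -- case 1 : points not orthogonal to `e`
  have case1 : ∀ x : V, Q x = 0 → polar Q e x ≠ 0 →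
      (img Q (QS Q x)).map α.toMonoidHom = (img Q (QS Q x)).map κ.toMonoidHom := by
    intro x hx hex
    set c := polar Q e x with hc
    have hx' : Q (c⁻¹ • x) = 0 := by rw [QuadraticMap.map_smul, hx]; simp
    have hex' : polar Q e (c⁻¹ • x) = 1 := by
      rw [polar_smul_right, smul_eq_mul, ← hc, inv_mul_cancel₀ hex]
    obtain ⟨w, hw, -, hwx⟩ := exists_si_map he hf hef hx' hex'
    have hA : img Q (QS Q x) = (img Q (QS Q f)).map
        (MulAut.conj (sb hQ hd e w)).toMonoidHom := by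
      rw [sb, hC]
      change _ = img Q (QS Q ((si Q e w).1 f))
      rw [hwx, img_QS_smul (inv_ne_zero hex)]
    have key : ∀ β : PT Q ≃* PT Q, (img Q (QS Q x)).map β.toMonoidHom =
        ((img Q (QS Q f)).map β.toMonoidHom).map
          (MulAut.conj (β (sb hQ hd e w))).toMonoidHom := by
      intro β
      rw [hA, Subgroup.map_map, Subgroup.map_map]
      congr 1
      ext t
      simp
    rw [key α, key κ, h1 w hw, h2]
  apply hR
  intro x hx0 hx
  by_cases hex : polar Q e x = 0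
  swap
  · exact case1 x hx hex
  by_cases hxe : ∃ c : F, x = c • e
  · obtain ⟨c, rfl⟩ := hxe
    have hc : c ≠ 0 := by
      rintro rfl
      simp at hx0
    rw [img_QS_smul hc, hAe]
  push Not at hxe
  obtain ⟨x1, hx10, hx1, hαx⟩ := H x hx0 hx
  obtain ⟨x2, hx20, hx2, hκx⟩ := K x hx0 hx
  obtain ⟨e1, he10, he1, hαe⟩ := H e he0 he
  have hκe : (img Q (QS Q e)).map κ.toMonoidHom = img Q (QS Q e1) := by rw [← hAe, hαe]
  rw [hαx, hκx]
  by_contra hne
  have hx21 : ∀ c : F, x2 ≠ c • x1 := by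
    intro c hc
    have hc0 : c ≠ 0 := by
      rintro rfl
      simp at hc
      exact hx20 hc
    apply hne
    rw [hc, img_QS_smul hc0]
  have he1x1 : ∀ c : F, e1 ≠ c • x1 := by
    intro c hc
    have hc0 : c ≠ 0 := by
      rintro rfl
      simp at hc
      exact he10 hc
    have h3 : (img Q (QS Q e)).map α.toMonoidHom = (img Q (QS Q x)).map α.toMonoidHom := by
      rw [hαe, hαx, hc, img_QS_smul hc0]
    have h4 := Subgroup.map_injective α.injective h3
    obtain ⟨d, -, hd'⟩ := hE he0 he hx0 hx h4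
    exact hxe d hd'
  have hp1 : polar Q e1 x1 = 0 :=
    (perp_transfer hP α he0 he hx0 hx he10 he1 hx10 hx1 hαe hαx).1 hex
  have hp2 : polar Q e1 x2 = 0 :=
    (perp_transfer hP κ he0 he hx0 hx he10 he1 hx20 hx2 hκe hκx).1 hex
  obtain ⟨b0, hb1, hb2, hb3⟩ := exists_sep hQ he1x1 hx21
  set b' := b0 - Q b0 • e1 with hb'
  have hQb' : Q b' = 0 := by
    rw [hb', qmap_sub, QuadraticMap.map_smul, he1, polar_smul_right, hb2]
    simp
  have hee1 : polar Q e1 e1 = 0 := polar_self_of_Q he1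
  have hb'e : polar Q e1 b' = 1 := by
    rw [hb', polar_sub_right, polar_smul_right, hee1, polar_comm, hb2]
    simp
  have hb'0 : b' ≠ 0 := by
    intro h
    rw [h] at hb'e
    simp at hb'e
  have hb'x1 : polar Q b' x1 = 0 := by
    rw [hb', polar_sub_left, polar_smul_left, hp1, hb1]
    simp
  have hb'x2 : polar Q b' x2 ≠ 0 := by
    rw [hb', polar_sub_left, polar_smul_left, hp2]
    simpa using hb3
  obtain ⟨b, hb0, hb, hαb⟩ := H' b' hb'0 hQb'
  have hαb' : (img Q (QS Q b)).map α.toMonoidHom = img Q (QS Q b') := by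
    rw [← hαb, Subgroup.map_map]
    convert Subgroup.map_id _
    ext t
    simp
  have hbe : polar Q e b ≠ 0 := by
    intro h
    have := (perp_transfer hP α he0 he hb0 hb he10 he1 hb'0 hQb' hαe hαb').1 h
    rw [hb'e] at this
    exact one_ne_zero this
  have hκb' : (img Q (QS Q b)).map κ.toMonoidHom = img Q (QS Q b') := by
    rw [← case1 b hb hbe, hαb']
  have hbx : polar Q b x = 0 :=
    (perp_transfer hP α hb0 hb hx0 hx hb'0 hQb' hx10 hx1 hαb' hαx).2 hb'x1
  exact hb'x2 ((perp_transfer hP κ hb0 hb hx0 hx hb'0 hQb' hx20 hx2 hκb' hκx).1 hbx)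

end Cfsg.Agent.Lib.Helper75.AutOFinal
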