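import Cfsg.Agent.Lib.Helper75.AutOPts
import Cfsg.Agent.Lib.Helper49.WittOmega

set_option autoImplicit false
set_option linter.unusedSectionVars false
set_option linter.unusedSimpArgs false

/-! Rung NORM of the AUT-ORTH ladder (helper95, msg 869). -/

namespace Cfsg.Agent.Lib.Helper75.AutOPts

open QuadraticMap Module Cfsg.Agent.Lib.Helper49 Cfsg.Agent.Lib.Helper95 Cfsg.Agent.Lib.Helper95.AutO

variable {F V : Type*} [Field F] [Fintype F] [AddCommGroup V] [Module F V] [FiniteDimensional F V]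
  {Q : QuadraticForm F V}

lemma linearIndependent_of_hyp {a b : V} (ha : Q a = 0) (hab : polar Q a b ≠ 0) :
    LinearIndependent F ![a, b] := by
  have haa : polar Q a a = 0 := polar_self_of_Q ha
  rw [LinearIndependent.pair_iff]
  intro s t hst
  have h1 : polar Q a (s • a + t • b) = 0 := by rw [hst]; simp
  rw [polar_add_right, polar_smul_right, polar_smul_right, haa] at h1
  simp only [smul_eq_mul, mul_zero, zero_add] at h1
  have ht : t = 0 := (mul_eq_zero.1 h1).resolve_right hab
  rw [ht, zero_smul, add_zero] at hst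
  have ha0 : a ≠ 0 := by
    rintro rfl
    simp at hab
  exact ⟨(smul_eq_zero.1 hst).resolve_right ha0, ht⟩

/-- RUNG NORM -/
theorem exists_normalise (hQ : (polarBilin Q).Nondegenerate) (hd : 7 ≤ finrank F V)
    (α : PT Q ≃* PT Q) (H : PermPts Q α) {e f : V} (he : Q e = 0) (hf : Q f = 0)
    (hef : polar Q e f = 1) :
    ∃ g : ↥(Om Q),
      (img Q (QS Q e)).map (α.trans (MulAut.conj (pr Q g))).toMonoidHom = img Q (QS Q e) ∧
      (img Q (QS Q f)).map (α.trans (MulAut.conj (pr Q g))).toMonoidHom = img Q (QS Q f) := by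
  have he0 : e ≠ 0 := by
    rintro rfl
    simp at hef
  have hf0 : f ≠ 0 := by
    rintro rfl
    simp at hef
  obtain ⟨e', he0', he', hαe⟩ := H e he0 he
  obtain ⟨f', hf0', hf', hαf⟩ := H f hf0 hf
  have hne : polar Q e' f' ≠ 0 := by
    intro h
    have h1 := (img_QS_inf_ne_bot_iff hQ hd he0' he' hf0' hf').2 h
    rw [← hαe, ← hαf, ← Subgroup.map_inf _ _ _ α.injective, Ne,
      Subgroup.map_eq_bot_iff_of_injective _ α.injective] at h1
    have h2 := (img_QS_inf_ne_bot_iff hQ hd he0 he hf0 hf).1 h1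
    rw [hef] at h2
    exact one_ne_zero h2
  set c := polar Q e' f' with hc
  have hf'' : Q (c⁻¹ • f') = 0 := by rw [QuadraticMap.map_smul, hf']; simp
  have hef'' : polar Q e' (c⁻¹ • f') = 1 := by
    rw [polar_smul_right, smul_eq_mul, ← hc, inv_mul_cancel₀ hne]
  obtain ⟨k, hk, hke, hkf⟩ := exists_commutator_map_pair Q hQ hd
    (linearIndependent_of_hyp he' (by rw [hef'']; exact one_ne_zero))
    (linearIndependent_of_hyp he (by rw [hef]; exact one_ne_zero))
    (he'.trans he.symm) (hf''.trans hf.symm) (hef''.trans hef.symm)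
  have key : ∀ x : V, (img Q (QS Q x)).map (α.trans (MulAut.conj (pr Q ⟨k, hk⟩))).toMonoidHom =
      ((img Q (QS Q x)).map α.toMonoidHom).map (MulAut.conj (pr Q ⟨k, hk⟩)).toMonoidHom := by
    intro x
    rw [Subgroup.map_map]
    rfl
  refine ⟨⟨k, hk⟩, ?_, ?_⟩
  · rw [key, hαe, map_conj_img_QS]
    change img Q (QS Q (k.1 e')) = _
    rw [hke]
  · rw [key, hαf, map_conj_img_QS]
    change img Q (QS Q (k.1 f')) = _
    have h1 : k.1 f' = c • f := by
      rw [← hkf, map_smul, smul_smul, mul_inv_cancel₀ hne, one_smul]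
    rw [h1, QS_smul hne]

end Cfsg.Agent.Lib.Helper75.AutOPts
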